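import Cfsg.Prelude.Def_Spor_J2

/-! The icosian ring in coordinates. -/

set_option autoImplicit false

namespace JJ

open Cfsg.Spor Quaternion

/-- the golden integers `m + n τ` -/
structure Zt where
  m : ℤ
  n : ℤ
  deriving DecidableEq

namespace Zt

instance instAddZt : Add Zt := ⟨fun x y => ⟨x.m + y.m, x.n + y.n⟩⟩
instance instNegZt : Neg Zt := ⟨fun x => ⟨-x.m, -x.n⟩⟩
instance instSubZt : Sub Zt := ⟨fun x y => ⟨x.m - y.m, x.n - y.n⟩⟩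
instance instMulZt : Mul Zt :=
  ⟨fun x y => ⟨x.m * y.m + x.n * y.n, x.m * y.n + x.n * (y.m + y.n)⟩⟩
/-- multiplication by `σ` -/
def sg (x : Zt) : Zt := ⟨x.m - x.n, -x.m⟩
/-- multiplication by `τ` -/
def ta (x : Zt) : Zt := ⟨x.n, x.m + x.n⟩
/-- the trace of the square -/
def tr (x : Zt) : ℤ := 2 * x.m * x.m + 2 * x.m * x.n + 3 * x.n * x.n
/-- the real value -/
noncomputable def ev (x : Zt) : ℝ := x.m + x.n * tau

theorem add_def (x y : Zt) : x + y = ⟨x.m + y.m, x.n + y.n⟩ := rfl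
theorem sub_def (x y : Zt) : x - y = ⟨x.m - y.m, x.n - y.n⟩ := rfl
theorem neg_def (x : Zt) : -x = ⟨-x.m, -x.n⟩ := rfl
theorem mul_def (x y : Zt) :
    x * y = ⟨x.m * y.m + x.n * y.n, x.m * y.n + x.n * (y.m + y.n)⟩ := rfl

theorem tau_sq : tau * tau = tau + 1 := by
  have := Real.mul_self_sqrt (show (0 : ℝ) ≤ 5 by norm_num)
  unfold tau; linear_combination (1 / 4) * this
theorem sig_eq : sig = 1 - tau := by unfold sig tau; ring

theorem ev_add (x y : Zt) : ev (x + y) = ev x + ev y := by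
  change ((x.m + y.m : ℤ) : ℝ) + (x.n + y.n : ℤ) * tau = _; simp only [ev]; push_cast; ring
theorem ev_sub (x y : Zt) : ev (x - y) = ev x - ev y := by
  change ((x.m - y.m : ℤ) : ℝ) + (x.n - y.n : ℤ) * tau = _; simp only [ev]; push_cast; ring
theorem ev_neg (x : Zt) : ev (-x) = -ev x := by
  change ((-x.m : ℤ) : ℝ) + (-x.n : ℤ) * tau = _; simp only [ev]; push_cast; ring
theorem ev_mul (x y : Zt) : ev (x * y) = ev x * ev y := by
  change ((x.m * y.m + x.n * y.n : ℤ) : ℝ) + (x.m * y.n + x.n * (y.m + y.n) : ℤ) * tau = _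
  simp only [ev]; push_cast; linear_combination (-(x.n : ℝ) * y.n) * tau_sq
theorem ev_sg (x : Zt) : ev (sg x) = (1 - tau) * ev x := by
  simp only [ev, sg]; push_cast; linear_combination (x.n : ℝ) * tau_sq
theorem ev_ta (x : Zt) : ev (ta x) = tau * ev x := by
  simp only [ev, ta]; push_cast; linear_combination (-x.n : ℝ) * tau_sq

theorem ev_inj {x y : Zt} (e : ev x = ev y) : x = y := by
  have i : Irrational tau := by
    unfold tau
    exact ((Nat.Prime.irrational_sqrt (p := 5) (by norm_num)).natCast_add 1).div_natCast two_ne_zero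
      |> fun h => by simpa using h
  obtain ⟨a, b⟩ := x
  obtain ⟨c, d⟩ := y
  simp only [ev] at e
  by_cases h : b = d
  · subst h; rw [add_left_inj, Int.cast_inj] at e; rw [e]
  · exact absurd (by push_cast; linear_combination e)
      ((i.intCast_mul (sub_ne_zero.2 h)).ne_int (c - a))

end Zt

open Zt

/-- icosians in the basis `1, i, B, i B` -/
structure M where
  a : Zt
  b : Zt
  c : Zt
  d : Zt
  deriving DecidableEq

namespace M

instance instAddM : Add M := ⟨fun x y => ⟨x.a + y.a, x.b + y.b, x.c + y.c, x.d + y.d⟩⟩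
instance instNegM : Neg M := ⟨fun x => ⟨-x.a, -x.b, -x.c, -x.d⟩⟩
instance instZeroM : Zero M := ⟨⟨⟨0, 0⟩, ⟨0, 0⟩, ⟨0, 0⟩, ⟨0, 0⟩⟩⟩
instance instOneM : One M := ⟨⟨⟨1, 0⟩, ⟨0, 0⟩, ⟨0, 0⟩, ⟨0, 0⟩⟩⟩
instance instMulM : Mul M := ⟨fun x y =>
  ⟨x.a * y.a - (x.b + sg x.c + x.d) * y.b - x.c * y.c - x.d * y.d,
    (x.a + x.c - sg x.d) * y.b + x.b * y.a + x.c * y.d - x.d * y.c,
    (x.a + x.c) * y.c + x.c * y.a - (x.b + sg x.c) * y.d + x.d * y.b,
    (x.a - sg x.d) * y.d + x.d * y.a + (x.b + x.d) * y.c - x.c * y.b⟩⟩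
theorem add_def (x y : M) : x + y = ⟨x.a + y.a, x.b + y.b, x.c + y.c, x.d + y.d⟩ := rfl
theorem mul_def (x y : M) : x * y =
  ⟨x.a * y.a - (x.b + sg x.c + x.d) * y.b - x.c * y.c - x.d * y.d,
    (x.a + x.c - sg x.d) * y.b + x.b * y.a + x.c * y.d - x.d * y.c,
    (x.a + x.c) * y.c + x.c * y.a - (x.b + sg x.c) * y.d + x.d * y.b,
    (x.a - sg x.d) * y.d + x.d * y.a + (x.b + x.d) * y.c - x.c * y.b⟩ := rfl
/-- conjugation -/
def st (x : M) : M := ⟨x.a + x.c - sg x.d, -x.b, -x.c, -x.d⟩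
def w0 (x : M) : Zt := x.a + x.a + x.c - sg x.d
def w1 (x : M) : Zt := x.b + x.b + sg x.c + x.d
def w2 (x : M) : Zt := -ta x.d
def w3 (x : M) : Zt := ta x.c

/-- the quaternion -/
noncomputable def f (x : M) : ℍ[ℝ] := ⟨ev x.w0 / 2, ev x.w1 / 2, ev x.w2 / 2, ev x.w3 / 2⟩

theorem f_re (x : M) : (f x).re = (ev x.a * 2 + ev x.c - (1 - tau) * ev x.d) / 2 := by
  simp only [f, w0, ev_add, ev_sub, ev_sg]; ring
theorem f_imI (x : M) : (f x).imI = (ev x.b * 2 + (1 - tau) * ev x.c + ev x.d) / 2 := by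
  simp only [f, w1, ev_add, ev_sg]; ring
theorem f_imJ (x : M) : (f x).imJ = -(tau * ev x.d) / 2 := by simp only [f, w2, ev_neg, ev_ta]
theorem f_imK (x : M) : (f x).imK = tau * ev x.c / 2 := by simp only [f, w3, ev_ta]

theorem f_add (x y : M) : f (x + y) = f x + f y := by
  change f ⟨_, _, _, _⟩ = _
  ext <;> simp [f_re, f_imI, f_imJ, f_imK, ev_add] <;> ring
theorem f_neg (x : M) : f (-x) = -f x := by
  change f ⟨_, _, _, _⟩ = _
  ext <;> simp [f_re, f_imI, f_imJ, f_imK, ev_neg] <;> ring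
theorem f_st (x : M) : f (st x) = star (f x) := by
  ext <;> simp [f_re, f_imI, f_imJ, f_imK, st, ev_add, ev_sub, ev_neg, ev_sg] <;> ring
theorem f_mul (x y : M) : f (x * y) = f x * f y := by
  change f ⟨_, _, _, _⟩ = _
  have := tau_sq
  ext <;> simp only [f_re, f_imI, f_imJ, f_imK, ev_add, ev_sub, ev_sg, ev_mul, re_mul, imI_mul,
    imJ_mul, imK_mul] <;> grind
theorem f_zero : f 0 = 0 := by
  change f ⟨_, _, _, _⟩ = _
  ext <;> simp [f_re, f_imI, f_imJ, f_imK, ev]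
theorem f_one : f 1 = 1 := by
  change f ⟨_, _, _, _⟩ = _
  ext <;> simp [f_re, f_imI, f_imJ, f_imK, ev]

/-- an icosian from its doubled coordinates -/
def fw (w0 w1 w2 w3 : Zt) : M :=
  let c := -sg w3
  let d := sg w2
  let a := w0 - c + sg d
  let b := w1 - sg c - d
  ⟨⟨a.m / 2, a.n / 2⟩, ⟨b.m / 2, b.n / 2⟩, c, d⟩

theorem fw_w (x : M) : fw x.w0 x.w1 x.w2 x.w3 = x := by
  obtain ⟨⟨a, a'⟩, ⟨b, b'⟩, ⟨c, c'⟩, ⟨d, d'⟩⟩ := x
  change M.mk ⟨(a + a + c - (d - d') - -(c' - (c + c')) + ((-d' - -(d + d')) - - -d')) / 2,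
    (a' + a' + c' - -d - - -c' + -(-d' - -(d + d'))) / 2⟩
    ⟨(b + b + (c - c') + d - (-(c' - (c + c')) - - -c') - (-d' - -(d + d'))) / 2,
    (b' + b' + -c + d' - - -(c' - (c + c')) - - -d') / 2⟩
    ⟨-(c' - (c + c')), - -c'⟩ ⟨-d' - -(d + d'), - -d'⟩ = _
  simp only [M.mk.injEq, Zt.mk.injEq]
  omega

theorem f_inj : Function.Injective f := fun x y e => by
  have k : ∀ {a b : Zt}, ev a / 2 = ev b / 2 → a = b := fun e => ev_inj (by linarith)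
  rw [← fw_w x, k (congrArg (·.re) e), k (congrArg (·.imI) e), k (congrArg (·.imJ) e),
    k (congrArg (·.imK) e), fw_w]

instance instRingM : Ring M := Ring.ofMinimalAxioms
  (fun a b c => f_inj (by simp only [f_add, add_assoc])) (fun a => f_inj (by simp [f_add, f_zero]))
  (fun a => f_inj (by simp [f_add, f_neg, f_zero])) (fun a b c => f_inj (by
    simp only [f_mul, mul_assoc])) (fun a => f_inj (by simp [f_mul, f_one]))
  (fun a => f_inj (by simp [f_mul, f_one])) (fun a b c => f_inj (by simp [f_add, f_mul, mul_add]))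
  (fun a b c => f_inj (by simp [f_add, f_mul, add_mul]))

/-- the trace of the norm, times four -/
def T (x : M) : ℤ := tr x.w0 + tr x.w1 + tr x.w2 + tr x.w3
/-- the trace of the first coordinate -/
def tz (x : M) : ℤ := 2 * x.a.m + x.a.n

theorem tz_add (x y : M) : tz (x + y) = tz x + tz y := by
  change 2 * (x.a.m + y.a.m) + (x.a.n + y.a.n) = _; simp only [tz]; ring

end M

open M

/-- the embedding in the quaternions -/
noncomputable def φ : M →+* ℍ[ℝ] := ⟨⟨⟨f, f_one⟩, f_mul⟩, f_zero, f_add⟩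

theorem φ_inj : Function.Injective φ := f_inj
theorem φ_st (x : M) : φ (st x) = star (φ x) := f_st x

def qi : M := ⟨⟨0, 0⟩, ⟨1, 0⟩, ⟨0, 0⟩, ⟨0, 0⟩⟩
def qb : M := ⟨⟨0, 0⟩, ⟨0, 0⟩, ⟨1, 0⟩, ⟨0, 0⟩⟩
def qj : M := ⟨⟨2, -1⟩, ⟨-1, 1⟩, ⟨0, 0⟩, ⟨2, -2⟩⟩
def qk : M := ⟨⟨1, -1⟩, ⟨2, -1⟩, ⟨-2, 2⟩, ⟨0, 0⟩⟩
def qh : M := ⟨⟨2, -2⟩, ⟨1, 0⟩, ⟨-1, 1⟩, ⟨1, -1⟩⟩
def hb : M := ⟨⟨-1, 0⟩, ⟨-1, 0⟩, ⟨1, -1⟩, ⟨-1, 1⟩⟩
def om : M := ⟨⟨1, -1⟩, ⟨1, 0⟩, ⟨-1, 1⟩, ⟨1, -1⟩⟩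
/-- a scalar -/
def sc (a : Zt) : M := ⟨a, ⟨0, 0⟩, ⟨0, 0⟩, ⟨0, 0⟩⟩

theorem φ_sc (a : Zt) : φ (sc a) = ev a := by
  change f _ = _
  ext <;> simp [f_re, f_imI, f_imJ, f_imK, sc, ev]
theorem φ_qi : φ qi = qI := by
  change f _ = _
  ext <;> simp [f_re, f_imI, f_imJ, f_imK, qi, ev, qI]
theorem φ_qb : φ qb = ⟨1 / 2, sig / 2, 0, tau / 2⟩ := by
  change f _ = _
  ext <;> simp [f_re, f_imI, f_imJ, f_imK, qb, ev, sig_eq]
theorem φ_qh : φ qh = icoH := by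
  have := tau_sq
  have e : √5 = 2 * tau - 1 := by unfold tau; ring
  change f _ = _
  ext <;> simp [f_re, f_imI, f_imJ, f_imK, qh, ev, icoH, e] <;> grind

theorem mem_ico {x : ℍ[ℝ]} : x ∈ icosians ↔ ∃ m, φ m = x := by
  refine ⟨fun h => (show icosians ≤ φ.range from Subring.closure_le.2 ?_) h, ?_⟩
  · rintro _ (rfl | rfl)
    exacts [⟨_, φ_qi⟩, ⟨_, φ_qb⟩]
  rintro ⟨m, rfl⟩
  have hi : qi ∈ icosians.comap φ := by
    rw [Subring.mem_comap, φ_qi]; exact Subring.subset_closure (by simp)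
  have hb : qb ∈ icosians.comap φ := by
    rw [Subring.mem_comap, φ_qb]; exact Subring.subset_closure (.inr rfl)
  have ht : sc ⟨0, 1⟩ ∈ icosians.comap φ := by
    rw [show sc ⟨0, 1⟩ = 1 + qb * qi + qi * qb + -qi by decide]
    exact add_mem (add_mem (add_mem (one_mem _) (mul_mem hb hi)) (mul_mem hi hb)) (neg_mem hi)
  have hs : ∀ a, sc a ∈ icosians.comap φ := fun a => by
    rw [show sc a = a.m + a.n * sc ⟨0, 1⟩ from φ_inj (by simp [φ_sc, ev]; rfl)]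
    exact add_mem (intCast_mem _ _) (mul_mem (intCast_mem _ _) ht)
  change m ∈ icosians.comap φ
  rw [show m = sc m.a + sc m.b * qi + sc m.c * qb + sc m.d * (qi * qb) by
    simp [M.mul_def, M.add_def, sc, qi, qb, Zt.add_def, Zt.sub_def, Zt.mul_def, sg]]
  exact add_mem (add_mem (add_mem (hs _) (mul_mem (hs _) hi)) (mul_mem (hs _) hb))
    (mul_mem (hs _) (mul_mem hi hb))

/-- divisibility by two -/
def Ev (x : M) : Prop := ∃ y, x = y + y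

theorem ev_iff (x : M) : (x.a.m % 2 = 0 ∧ x.a.n % 2 = 0 ∧ x.b.m % 2 = 0 ∧ x.b.n % 2 = 0 ∧
    x.c.m % 2 = 0 ∧ x.c.n % 2 = 0 ∧ x.d.m % 2 = 0 ∧ x.d.n % 2 = 0) ↔ Ev x := by
  obtain ⟨⟨a, a'⟩, ⟨b, b'⟩, ⟨c, c'⟩, ⟨d, d'⟩⟩ := x
  refine ⟨fun h => ⟨⟨⟨a / 2, a' / 2⟩, ⟨b / 2, b' / 2⟩, ⟨c / 2, c' / 2⟩, ⟨d / 2, d' / 2⟩⟩, ?_⟩, ?_⟩
  · change _ = M.mk ⟨_ + _, _ + _⟩ ⟨_ + _, _ + _⟩ ⟨_ + _, _ + _⟩ ⟨_ + _, _ + _⟩
    simp only [M.mk.injEq, Zt.mk.injEq] at h ⊢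
    omega
  · rintro ⟨⟨⟨a, a'⟩, ⟨b, b'⟩, ⟨c, c'⟩, ⟨d, d'⟩⟩, e⟩
    change _ = M.mk ⟨_ + _, _ + _⟩ ⟨_ + _, _ + _⟩ ⟨_ + _, _ + _⟩ ⟨_ + _, _ + _⟩ at e
    simp only [M.mk.injEq, Zt.mk.injEq] at e ⊢
    omega

instance instDecidableEv (x : M) : Decidable (Ev x) := decidable_of_iff _ (ev_iff x)

theorem Ev.add {x y : M} : Ev x → Ev y → Ev (x + y) := by
  rintro ⟨a, rfl⟩ ⟨b, rfl⟩; exact ⟨a + b, by abel⟩
theorem Ev.mul (a : M) {x : M} : Ev x → Ev (a * x) := by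
  rintro ⟨b, rfl⟩; exact ⟨a * b, mul_add ..⟩
theorem two_cancel {x y : M} (e : x + x = y + y) : x = y := φ_inj (by
  have := congrArg φ e
  rw [map_add, map_add, ← two_smul ℝ, ← two_smul ℝ] at this
  exact smul_right_injective _ two_ne_zero this)
theorem st_add (x y : M) : st (x + y) = st x + st y := φ_inj (by simp [φ_st])
theorem st_mul (x y : M) : st (x * y) = st y * st x := φ_inj (by simp [φ_st])
theorem st_st (x : M) : st (st x) = x := φ_inj (by simp [φ_st])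
theorem Ev.st {x : M} : Ev x → Ev (st x) := by
  rintro ⟨b, rfl⟩; exact ⟨_, st_add ..⟩

theorem ev_mul_iff {p q : M} (e : p * q = 1 + 1) (e' : q * p = 1 + 1) {m : M} :
    Ev (m * q) ↔ ∃ a, m = a * p := ⟨fun ⟨a, h⟩ => ⟨a, two_cancel (by
      rw [← add_mul, ← h, mul_assoc, e', mul_add, mul_one])⟩,
    by rintro ⟨a, rfl⟩; exact ⟨a, by rw [mul_assoc, e, mul_add, mul_one]⟩⟩

theorem ev_h {m : M} : Ev (m * hb) ↔ ∃ a, m = a * qh := ev_mul_iff (by decide) (by decide)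
theorem ev_hb {m : M} : Ev (m * qh) ↔ ∃ a, m = a * hb := ev_mul_iff (by decide) (by decide)

theorem mem_ideal {p m : M} : φ m ∈ leftIdeal (φ p) ↔ ∃ a, m = a * p :=
  ⟨fun ⟨_, ha, e⟩ => by
    obtain ⟨a, rfl⟩ := mem_ico.1 ha
    exact ⟨a, φ_inj (e.trans (map_mul φ _ _).symm)⟩,
  by rintro ⟨a, rfl⟩; exact ⟨_, mem_ico.2 ⟨a, rfl⟩, map_mul φ _ _⟩⟩

/-- the lattice in coordinates -/
def LM : Submodule M (Fin 3 → M) where
  carrier := {v | Ev ((v 0 - v 1) * hb) ∧ Ev ((v 1 - v 2) * hb) ∧ Ev ((v 0 + v 1 + v 2) * qh)}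
  zero_mem' := by decide
  add_mem' := fun ⟨a, b, c⟩ ⟨a', b', c'⟩ => ⟨by convert a.add a' using 1; simp; noncomm_ring,
    by convert b.add b' using 1; simp; noncomm_ring,
    by convert c.add c' using 1; simp; noncomm_ring⟩
  smul_mem' x _ := fun ⟨a, b, c⟩ => ⟨by convert a.mul x using 1; simp; noncomm_ring,
    by convert b.mul x using 1; simp; noncomm_ring,
    by convert c.mul x using 1; simp; noncomm_ring⟩

theorem mem_LM {v : Fin 3 → M} : v ∈ LM ↔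
    Ev ((v 0 - v 1) * hb) ∧ Ev ((v 1 - v 2) * hb) ∧ Ev ((v 0 + v 1 + v 2) * qh) := Iff.rfl

instance instDecidableLM (v : Fin 3 → M) : Decidable (v ∈ LM) := decidable_of_iff' _ mem_LM

theorem map_mem {v : Fin 3 → M} : φ ∘ v ∈ icoLeech ↔ v ∈ LM := by
  rw [mem_LM, ev_h, ev_h, ev_hb, ← mem_ideal, ← mem_ideal, ← mem_ideal, φ_qh,
    show hb = st qh by decide, φ_st, φ_qh]
  simp only [map_sub, map_add]
  exact ⟨fun h => h.2, fun h => ⟨fun t => mem_ico.2 ⟨_, rfl⟩, h⟩⟩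

theorem mem_Leech {x : Fin 3 → ℍ[ℝ]} (h : x ∈ icoLeech) : ∃ v ∈ LM, φ ∘ v = x := by
  choose v hv using fun t => mem_ico.1 (h.1 t)
  obtain rfl : φ ∘ v = x := funext hv
  exact ⟨v, map_mem.1 h, rfl⟩

/-- the inner product -/
def ip (x r : Fin 3 → M) : M := x 0 * st (r 0) + x 1 * st (r 1) + x 2 * st (r 2)

theorem φ_ip (x r : Fin 3 → M) : φ (ip x r) = qip (φ ∘ x) (φ ∘ r) := by
  simp [ip, qip, Fin.sum_univ_three, φ_st]

theorem ip_ev {x r : Fin 3 → M} (hx : x ∈ LM) (hr : r ∈ LM) : Ev (ip x r) := by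
  let g : Fin 4 → Fin 3 → M := ![![hb, hb, hb], ![qh, qh, 0], ![0, qh, qh], ![0, 1 + 1, 0]]
  have k : ∀ {x r}, x ∈ LM → (∀ k, Ev (ip (g k) r)) → Ev (ip x r) := fun {x r} hx h => by
    obtain ⟨⟨a, ha⟩, ⟨b, hb'⟩, c, hc⟩ := hx.imp ev_h.1 (And.imp ev_h.1 ev_hb.1)
    have e : hb * qh = 1 + 1 := by decide
    convert ((((h 0).mul c).add ((h 1).mul (b - x 1 * hb))).add ((h 2).mul (-a - x 1 * hb))).add
      ((h 3).mul (x 1)) using 1
    have h0 : x 0 = c * hb + (b - x 1 * hb) * qh := by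
      rw [sub_mul, mul_assoc, e, ← hc, ← hb']; noncomm_ring
    have h1 : x 1 = c * hb + (b - x 1 * hb) * qh + (-a - x 1 * hb) * qh + x 1 * (1 + 1) := by
      rw [sub_mul, sub_mul, neg_mul, mul_assoc, e, ← hc, ← hb', ← ha]; noncomm_ring
    have h2 : x 2 = c * hb + (-a - x 1 * hb) * qh := by
      rw [sub_mul, neg_mul, mul_assoc, e, ← hc, ← ha]; noncomm_ring
    rw [ip, h0, h2]
    nth_rw 2 [h1]
    simp only [ip, g, Matrix.cons_val]
    noncomm_ring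
  refine k hx fun l => ?_
  have := (k hr (r := g l) (by revert l; decide)).st
  simpa only [ip, st_add, st_mul, st_st] using this

theorem T_eq (x : M) : T x = 4 * tz (x * st x) := by
  simp only [T, tz, tr, w0, w1, w2, w3, st, M.mul_def, Zt.add_def, Zt.sub_def, Zt.mul_def,
    Zt.neg_def, sg, ta]
  ring

theorem T_h (x : M) : T (x * qh) = 2 * T x := by
  simp only [T, tr, w0, w1, w2, w3, qh, M.mul_def, Zt.add_def, Zt.sub_def, Zt.mul_def,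
    Zt.neg_def, sg, ta]
  ring

theorem tr_nonneg (x : Zt) : 0 ≤ tr x := by
  unfold tr; nlinarith [sq_nonneg (2 * x.m + x.n), sq_nonneg x.n]

theorem tr_bd {x : Zt} {k : ℤ} (hk : 0 ≤ k) (h : tr x < (k + 1) * (k + 1)) :
    x.m ∈ Set.Icc (-k) k ∧ x.n ∈ Set.Icc (-k) k := by
  unfold tr at h
  refine ⟨⟨?_, ?_⟩, ?_, ?_⟩ <;> by_contra c <;> nlinarith [sq_nonneg (x.m + x.n), sq_nonneg x.n,
    sq_nonneg x.m]

/-- the golden integers of small trace -/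
def L13 : List Zt := [⟨0, 0⟩, ⟨1, 0⟩, ⟨-1, 0⟩, ⟨0, 1⟩, ⟨0, -1⟩, ⟨1, -1⟩, ⟨-1, 1⟩, ⟨1, 1⟩, ⟨-1, -1⟩,
  ⟨2, -1⟩, ⟨-2, 1⟩, ⟨2, 0⟩, ⟨-2, 0⟩]

theorem mem_L13 {x : Zt} (h : tr x ≤ 8) : x ∈ L13 := by
  obtain ⟨⟨h1, h2⟩, h3, h4⟩ := tr_bd (k := 2) (by norm_num) (x := x) (by omega)
  obtain ⟨m, n⟩ := x
  simp only at h1 h2 h3 h4
  interval_cases m <;> interval_cases n <;> revert h <;> decide

/-- the quaternion group -/
def qv (e a b : Bool) : M :=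
  let s : M := bif a then bif b then qk else qi else bif b then qj else 1
  bif e then -s else s

/-- properties of the units -/
def Un (x : M) : Prop := x * st x = 1 ∧ st x * x = 1 ∧
  (Ev (qh * x * hb) → ∃ e a b, ∃ k : Fin 3, x = qv e a b * om ^ k.val) ∧
  (Ev ((1 + x) * qh * qh) → ∃ e a b, hb * x * qh = qv e a b + qv e a b)

instance instDecidableUn (x : M) : Decidable (Un x) := by unfold Un; infer_instance

theorem enum0 : ∀ w0 ∈ L13, ∀ w1 ∈ L13, tr w0 + tr w1 ≤ 8 → ∀ w2 ∈ L13, tr w0 + tr w1 + tr w2 ≤ 8 →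
    ∀ w3 ∈ L13, tr w0 + tr w1 + tr w2 + tr w3 ≤ 8 → (fw w0 w1 w2 w3).w0 = w0 →
    (fw w0 w1 w2 w3).w1 = w1 → fw w0 w1 w2 w3 = 0 ∨ Un (fw w0 w1 w2 w3) := by
  decide +kernel

theorem enum {x : M} (h : T x ≤ 8) : x = 0 ∨ Un x := by
  have h0 := tr_nonneg x.w0
  have h1 := tr_nonneg x.w1
  have h2 := tr_nonneg x.w2
  have h3 := tr_nonneg x.w3
  unfold T at h
  exact fw_w x ▸ enum0 _ (mem_L13 (by omega)) _ (mem_L13 (by omega)) (by omega) _
    (mem_L13 (by omega)) (by omega) _ (mem_L13 (by omega)) h (by rw [fw_w]) (by rw [fw_w])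

theorem dg1 : ∀ e a b e' a' b', ∀ k k' : Fin 3,
    Ev ((qh * (qv e a b * om ^ k.val) + qh * (qv e' a' b' * om ^ k'.val)) * qh) → k = k' := by
  decide +kernel

theorem dg2 : ∀ e a b e' a' b' e'' a'' b'', ∀ k : Fin 3, Ev ((hb * (qv e a b * om ^ k.val) +
    hb * (qv e' a' b' * om ^ k.val) + hb * (qv e'' a'' b'' * om ^ k.val)) * qh) →
    a = xor a' a'' ∧ b = xor b' b'' := by
  decide +kernel

theorem fin_T : {x : M | T x ≤ 32}.Finite := by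
  have k : {x : Zt | tr x ≤ 32}.Finite := ((Set.finite_Icc (-5 : ℤ) 5).prod
    (Set.finite_Icc (-5 : ℤ) 5)).of_injOn (f := fun x => (x.m, x.n))
    (fun x h => tr_bd (by norm_num) (by have : tr x ≤ 32 := h; omega))
    (fun ⟨_, _⟩ _ ⟨_, _⟩ _ e => by simpa using e)
  refine ((k.prod k).prod (k.prod k)).of_injOn (f := fun x => ((x.w0, x.w1), x.w2, x.w3))
    (fun x h => ?_) fun x _ y _ e => ?_
  · have h0 := tr_nonneg x.w0
    have h1 := tr_nonneg x.w1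
    have h2 := tr_nonneg x.w2
    have h3 := tr_nonneg x.w3
    have h : T x ≤ 32 := h
    unfold T at h
    refine ⟨⟨?_, ?_⟩, ?_, ?_⟩ <;> simp only [Set.mem_ofPred_eq] <;> omega
  · simp only [Prod.mk.injEq] at e
    rw [← fw_w x, e.1.1, e.1.2, e.2.1, e.2.2, fw_w]

end JJ
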