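import Cfsg.Agent.JJ.Ico

/-! The reflection group `2·J₂` as a group of unitary quaternionic matrices. -/

set_option autoImplicit false

namespace JJ

open Cfsg.Spor Quaternion Matrix M

abbrev Mt := Matrix (Fin 3) (Fin 3) ℍ[ℝ]
abbrev Mm := Matrix (Fin 3) (Fin 3) M

/-- unitary matrices preserving the lattice -/
noncomputable def UL : Subgroup (unitary Mt) where
  carrier := {A | ∀ v, v ∈ icoLeech ↔ v ᵥ* star A.1 ∈ icoLeech}
  one_mem' v := by simp
  mul_mem' {A B} a b v := by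
    rw [Submonoid.coe_mul, star_mul, ← vecMul_vecMul]; exact (b v).trans (a _)
  inv_mem' {A} a v := by
    change _ ↔ v ᵥ* star (star A.1) ∈ _
    rw [star_star, a (v ᵥ* A.1), vecMul_vecMul, A.2.2, vecMul_one]

noncomputable instance instMulActionUL : MulAction UL icoLeech where
  smul A v := ⟨v.1 ᵥ* star A.1.1, (A.2 v).1 v.2⟩
  one_smul v := Subtype.ext (by change v.1 ᵥ* star (1 : Mt) = _; simp)
  mul_smul A B v := Subtype.ext (by
    change v.1 ᵥ* star (A.1.1 * B.1.1) = v.1 ᵥ* star B.1.1 ᵥ* star A.1.1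
    rw [star_mul, vecMul_vecMul])

/-- the action on the lattice -/
noncomputable def act : UL →* Equiv.Perm icoLeech := MulAction.toPermHom UL icoLeech

theorem act_apply (A : UL) (v : icoLeech) : (act A v).1 = v.1 ᵥ* star A.1.1 := rfl

/-- the matrix group -/
noncomputable def Γ : Subgroup UL := twoJ2.comap act

/-- the matrix -/
noncomputable def mat : Γ →* Mt := ((unitary Mt).subtype.comp UL.subtype).comp Γ.subtype

/-- the projection -/
noncomputable def π : Γ →* J2 := (QuotientGroup.mk' _).comp (act.subgroupComap twoJ2)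

theorem mat_inj : Function.Injective mat := fun _ _ e => Subtype.ext (Subtype.ext (Subtype.ext e))
theorem mat_inv (g : Γ) : mat g⁻¹ = star (mat g) := rfl
theorem mat_un (g : Γ) : mat g * star (mat g) = 1 := g.1.1.2.2
theorem mat_mem (g : Γ) {v : Fin 3 → ℍ[ℝ]} (h : v ∈ icoLeech) : v ᵥ* mat g ∈ icoLeech := by
  have := ((g⁻¹).1.2 v).1 h
  rwa [show star (g⁻¹).1.1.1 = mat g from star_star _] at this

/-- twice a coordinate vector -/
def e2 (t : Fin 3) : Fin 3 → M := fun s => if s = t then 1 + 1 else 0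

theorem e2_mem : ∀ t, e2 t ∈ LM := by decide
theorem e2_mul (t : Fin 3) (A : Mt) : (φ ∘ e2 t) ᵥ* A = fun s => A t s + A t s := by
  ext1 s
  simp [vecMul, dotProduct, e2, apply_ite φ, add_mul]

theorem half {a b : ℍ[ℝ]} (e : a + a = b + b) : a = b := by
  rw [← two_smul ℝ, ← two_smul ℝ] at e
  exact smul_right_injective _ two_ne_zero e

theorem act_inj : Function.Injective act := fun A B e => Subtype.ext (Subtype.ext
  (star_injective (Matrix.ext fun s t => half (by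
    have := congrArg (fun f : Equiv.Perm icoLeech => (f ⟨_, map_mem.2 (e2_mem s)⟩).1 t) e
    simpa only [act_apply, e2_mul] using this))))

/-- the matrix of a reflection -/
noncomputable def Mr (r : Fin 3 → ℍ[ℝ]) : Mt := 1 - (1 / 2 : ℝ) • vecMulVec (star r) r

theorem qip_eq (x r : Fin 3 → ℍ[ℝ]) : qip x r = x ⬝ᵥ star r := rfl

theorem Mr_mul (r x : Fin 3 → ℍ[ℝ]) : x ᵥ* Mr r = qrefl r x := by
  rw [Mr, vecMul_sub, vecMul_one, vecMul_smul, vecMul_vecMulVec]
  ext1 t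
  simp [qrefl, qip_eq]

theorem Mr_star (r : Fin 3 → ℍ[ℝ]) : star (Mr r) = Mr r := by
  rw [Mr, star_sub, star_one]
  congr 1
  ext1 s t
  simp [star_apply, vecMulVec_apply, Quaternion.star_smul]

theorem Mr_sq {r : Fin 3 → ℍ[ℝ]} (h : qip r r = 4) : Mr r * Mr r = 1 := by
  have : vecMulVec (star r) r * vecMulVec (star r) r = (4 : ℝ) • vecMulVec (star r) r := by
    rw [vecMulVec_mul_vecMulVec, ← qip_eq, h, ← vecMulVec_smul]
    congr 1
    ext1 t
    rw [Pi.smul_apply, Pi.smul_apply, smul_eq_mul, Algebra.smul_def, map_ofNat]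
  rw [Mr, sub_mul, mul_sub, mul_sub, smul_mul_smul_comm, this]
  simp only [one_mul, mul_one]
  module

theorem Mr_conj {A : Mt} (h : A * star A = 1) (r : Fin 3 → ℍ[ℝ]) :
    A * Mr r * star A = Mr (r ᵥ* star A) := by
  rw [Mr, Mr, mul_sub, sub_mul, mul_one, h, Matrix.mul_smul, Matrix.smul_mul, mul_vecMulVec,
    vecMulVec_mul, star_vecMul, ← star_eq_conjTranspose, star_star]

theorem qip_mul {A : Mt} (h : A * star A = 1) (x r : Fin 3 → ℍ[ℝ]) :
    qip (x ᵥ* A) (r ᵥ* A) = qip x r := by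
  rw [qip_eq, star_vecMul, dotProduct_mulVec, vecMul_vecMul, ← star_eq_conjTranspose, h, vecMul_one,
    qip_eq]

/-- a reflection preserving the lattice -/
noncomputable def rU {r : Fin 3 → ℍ[ℝ]} (h : qip r r = 4)
    (k : ∀ x ∈ icoLeech, qrefl r x ∈ icoLeech) : UL :=
  ⟨⟨Mr r, by rw [Mr_star, Mr_sq h], by rw [Mr_star, Mr_sq h]⟩, fun v => by
    change _ ↔ v ᵥ* star (Mr r) ∈ _
    rw [Mr_star]
    refine ⟨fun e => Mr_mul r v ▸ k _ e, fun e => ?_⟩
    have := k _ e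
    rwa [← Mr_mul, vecMul_vecMul, Mr_sq h, vecMul_one] at this⟩

theorem rU_apply {r : Fin 3 → ℍ[ℝ]} (h : qip r r = 4) (k) (x : icoLeech) :
    (act (rU h k) x).1 = qrefl r x := by
  rw [act_apply, ← Mr_mul]; exact congrArg _ (Mr_star r)

theorem le_range : twoJ2 ≤ act.range := (Subgroup.closure_le _).2 fun f ⟨_, h, e⟩ =>
  ⟨rU h fun x hx => e ⟨x, hx⟩ ▸ (f _).2, Equiv.ext fun x => Subtype.ext
    ((rU_apply h _ x).trans (e x).symm)⟩

theorem π_surj : Function.Surjective π := (QuotientGroup.mk'_surjective _).comp fun ⟨_, h⟩ => by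
  obtain ⟨A, rfl⟩ := le_range h
  exact ⟨⟨A, h⟩, rfl⟩

theorem π_eq_one {g : Γ} : π g = 1 ↔ ∀ k, mat k * mat g = mat g * mat k := by
  have e : ∀ k : Γ, mat k * mat g = mat g * mat k ↔ act k * act g = act g * act k := fun k => by
    rw [← map_mul, ← map_mul, ← map_mul, ← map_mul, mat_inj.eq_iff, act_inj.eq_iff, Subtype.ext_iff]
    rfl
  rw [show π g = ((act.subgroupComap twoJ2 g : twoJ2) : J2) from rfl, QuotientGroup.eq_one_iff,
    Subgroup.mem_center_iff]
  refine ⟨fun h k => (e k).2 (congrArg Subtype.val (h ⟨_, k.2⟩)), fun h ⟨_, hk⟩ => ?_⟩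
  obtain ⟨A, rfl⟩ := le_range hk
  exact Subtype.ext ((e ⟨A, hk⟩).1 (h _))

/-- matrices over the icosians -/
noncomputable def Φ : Mm →+* Mt := φ.mapMatrix

theorem Φ_apply (B : Mm) (s t : Fin 3) : Φ B s t = φ (B s t) := rfl
theorem Φ_inj : Function.Injective Φ := fun _ _ e => Matrix.ext fun s t =>
  φ_inj (congrFun (congrFun e s) t)
theorem Φ_mul (v : Fin 3 → M) (B : Mm) : (φ ∘ v) ᵥ* Φ B = φ ∘ (v ᵥ* B) :=
  funext fun t => (φ.map_vecMul B v t).symm

theorem LM_mul {g : Γ} {B : Mm} (e : mat g = Φ B) {v : Fin 3 → M} (h : v ∈ LM) : v ᵥ* B ∈ LM := by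
  rw [← map_mem, ← Φ_mul, ← e]; exact mat_mem g (map_mem.2 h)

/-- twice the matrix of a reflection -/
def NM (r : Fin 3 → M) : Mm := Matrix.of fun s t => e2 s t - st (r s) * r t

theorem Φ_NM (r : Fin 3 → M) : Mr (φ ∘ r) = (1 / 2 : ℝ) • Φ (NM r) := by
  ext1 s t
  by_cases h : s = t
  · subst h
    simp [Mr, Φ_apply, NM, e2, vecMulVec_apply, φ_st, smul_sub, ← two_smul ℝ, smul_smul]
  · simp [Mr, Φ_apply, NM, e2, vecMulVec_apply, φ_st, h, Ne.symm h]

theorem Mr_eq {r : Fin 3 → M} {B : Mm} (e : NM r = B + B) : Mr (φ ∘ r) = Φ B := by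
  rw [Φ_NM, e, map_add]; module

theorem φ_four : φ (1 + 1 + (1 + 1)) = 4 := by simp; norm_num

theorem ex_refl {r : Fin 3 → M} (h : r ∈ LM) (h4 : ip r r = 1 + 1 + (1 + 1)) :
    ∃ g, mat g = Mr (φ ∘ r) := by
  have e : qip (φ ∘ r) (φ ∘ r) = 4 := by rw [← φ_ip, h4, φ_four]
  refine ⟨⟨rU e fun x hx => ?_, Subgroup.subset_closure ⟨⟨_, map_mem.2 h⟩, e, rU_apply e _⟩⟩, rfl⟩
  obtain ⟨v, hv, rfl⟩ := mem_Leech hx
  obtain ⟨a, ha⟩ := ip_ev hv h
  convert map_mem.2 (sub_mem hv (LM.smul_mem a h))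
  ext1 t
  simp [qrefl, ← φ_ip, ha, ← two_smul ℝ, smul_smul]

theorem ex_mon (r : Fin 3 → M) (B : Mm) (h : r ∈ LM ∧ ip r r = 1 + 1 + (1 + 1) ∧ NM r = B + B) :
    Φ B ∈ MonoidHom.mrange mat := Mr_eq h.2.2 ▸ ex_refl h.1 h.2.1

theorem row (g : Γ) (t : Fin 3) : ∃ w ∈ LM, φ ∘ w = (φ ∘ e2 t) ᵥ* mat g ∧
    ip w w = 1 + 1 + (1 + 1) := by
  obtain ⟨w, hw, e⟩ := mem_Leech (mat_mem g (map_mem.2 (e2_mem t)))
  refine ⟨w, hw, e, φ_inj ?_⟩
  rw [φ_ip, e, qip_mul (mat_un g), ← φ_ip]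
  exact congrArg φ (by clear e; revert t; decide)

theorem T_nonneg (x : M) : 0 ≤ T x := add_nonneg (add_nonneg (add_nonneg (tr_nonneg _)
  (tr_nonneg _)) (tr_nonneg _)) (tr_nonneg _)

instance instFiniteΓ : Finite Γ := by
  choose w hw e h using row
  have := fin_T.to_subtype
  have k : ∀ g t s, T (w g t s) ≤ 32 := fun g t s => by
    have := congrArg tz (h g t)
    rw [ip, tz_add, tz_add, show tz (1 + 1 + (1 + 1)) = 8 by decide] at this
    have h0 := T_nonneg (w g t 0)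
    have h1 := T_nonneg (w g t 1)
    have h2 := T_nonneg (w g t 2)
    rw [T_eq] at h0 h1 h2
    fin_cases s <;> simp only [T_eq, Fin.zero_eta, Fin.mk_one, Fin.reduceFinMk] <;> omega
  refine Finite.of_injective (β := Fin 3 → Fin 3 → {x : M | T x ≤ 32})
    (fun g t s => ⟨w g t s, k g t s⟩) fun g g' c => mat_inj (Matrix.ext fun t s => half ?_)
  have := congrArg (fun f => φ (f t s).1) c
  exact (congrFun ((e g t).trans (e2_mul ..)) s).symm.trans
    (this.trans (congrFun ((e g' t).trans (e2_mul ..)) s))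

instance instFiniteJ2 : Finite J2 := Finite.of_surjective π π_surj

end JJ
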